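import Cfsg.Agent.H658.InertialBound

/-!
# S4577: heights and the number of classes of major subsections

`D` a defect group of the 2-block `B`, `b` a block of `H = D C_G(D)` inducing `B`, `T` its stabilizer in `N_G(D)`.

* `card_mul_le`: `z i ∈ Z(D)` with `z i ^ 4 = 1`, pairwise not conjugate under `T`, `χ ∈ B` of height `h ≥ 1`:
  `|ι| * 2 ^ (h + 1) ≤ 2 ^ d`;
* `height_le_of_card_center`: `|Z(D)| ≤ 2 ^ (d - h) * |T : H|`.
-/

set_option autoImplicit false
set_option linter.unusedSectionVars false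

open Cfsg
open scoped ComplexConjugate

namespace Cfsg.Agent.H850.DXVI

open Cfsg.Agent.Blocks.Local Cfsg.Agent.Characters Cfsg.Agent.Blocks.Blau
open Cfsg.Agent.H613.RegGram Cfsg.Agent.H613.Contrib Cfsg.Agent.H613.ContribVal
open Cfsg.Agent.H658
open Cfsg.Agent.H662 (trB)

variable {G : Type*} [Group G] [Finite G] {M : Ideal AlgInt}

theorem re_int_of_pow_four {a : ℂ} (ha : a ^ 4 = 1) : ∃ z : ℤ, a.re = z := by
  have h1 : (a ^ 2 - 1) * (a ^ 2 + 1) = 0 := by linear_combination ha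
  rcases mul_eq_zero.1 h1 with h2 | h2
  · have h3 : (a - 1) * (a + 1) = 0 := by linear_combination h2
    rcases mul_eq_zero.1 h3 with h4 | h4
    · exact ⟨1, by rw [sub_eq_zero.1 h4]; simp⟩
    · exact ⟨-1, by rw [eq_neg_of_add_eq_zero_left h4]; simp⟩
  · refine ⟨0, ?_⟩
    have h3 := congrArg Complex.re h2
    have h4 := congrArg Complex.im h2
    simp only [pow_two, Complex.add_re, Complex.mul_re, Complex.one_re, Complex.zero_re, Complex.add_im,
      Complex.mul_im, Complex.one_im, Complex.zero_im, add_zero] at h3 h4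
    have h5 : a.re * a.im = 0 := by linarith
    rcases mul_eq_zero.1 h5 with h6 | h6
    · rw [h6]; simp
    · rw [h6] at h3
      nlinarith

/-- For `u ^ 4 = 1` the scaled contribution of `(u, b)` to the norm of `χ` is an integer. -/
theorem exists_int_cn (hM : IsPModular 2 M) {u : G} (hu : u ^ 4 = 1)
    {b : Set (IrrCharacter (Subgroup.centralizer ({u} : Set G)))} (hb : IsPBlock M b) (χ : IrrCharacter G) :
    ∃ n : ℤ, (2 : ℝ) ^ blockDefect 2 b * cn 2 u b (χ : G → ℂ) = n := by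
  classical
  have : Fact (Nat.Prime 2) := ⟨Nat.prime_two⟩
  have := Fintype.ofFinite (Subgroup.centralizer ({u} : Set G))
  have := Core.finite_irr (G := Subgroup.centralizer ({u} : Set G))
  have := Fintype.ofFinite (IrrCharacter (Subgroup.centralizer ({u} : Set G)))
  have : Fintype b := Fintype.ofFinite b
  obtain ⟨n, e, hE⟩ := exists_exp (H := Subgroup.centralizer ({u} : Set G)) rfl (q := 4) hu
  have hz : ∀ ξ η : IrrCharacter (Subgroup.centralizer ({u} : Set G)), ∃ z : ℤ, ξ ∈ b →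
      (2 : ℂ) ^ blockDefect 2 b * rg 2 (ξ : Subgroup.centralizer ({u} : Set G) → ℂ)
        (η : Subgroup.centralizer ({u} : Set G) → ℂ) = z := by
    intro ξ η
    by_cases hξ : ξ ∈ b
    · obtain ⟨z, hz⟩ := exists_int_rg (p := 2) hM hξ η
      exact ⟨z, fun _ => by exact_mod_cast hz⟩
    · exact ⟨0, fun h => absurd h hξ⟩
  choose z hz using hz
  have h1 := pow_mul_contr_eq (p := 2) hM hE hb (z := z) (fun ξ hξ η => by exact_mod_cast hz ξ η hξ) χ χ (k := 1)
    (by rw [pow_one])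
  rw [pow_one, contr_self_eq_cn] at h1
  have h2 : ∀ i : b × b, ∃ t : ℤ, (e i.1 * conj (e i.2)).re = t := fun i =>
    re_int_of_pow_four (pow_mul_conj_eq_one (hE.root _) (hE.root _))
  choose t ht using h2
  refine ⟨∑ i : b × b, (n χ i.1 * n χ i.2 * z i.1 i.2) * t i, ?_⟩
  have h3 := congrArg Complex.re h1
  rw [Complex.re_sum] at h3
  have h4 : (((2 : ℕ) : ℂ) ^ blockDefect 2 b * ((cn 2 u b (χ : G → ℂ) : ℝ) : ℂ)).re =
      (2 : ℝ) ^ blockDefect 2 b * cn 2 u b (χ : G → ℂ) := by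
    rw [← Complex.ofReal_natCast, ← Complex.ofReal_pow, ← Complex.ofReal_mul, Complex.ofReal_re]
    norm_num
  rw [h4] at h3
  rw [h3, Int.cast_sum]
  refine Finset.sum_congr rfl fun i _ => ?_
  have h5 : (((n χ i.1 * n χ i.2 * z i.1 i.2 : ℤ) : ℚ) : ℂ) = (((n χ i.1 * n χ i.2 * z i.1 i.2 : ℤ) : ℝ) : ℂ) := by
    push_cast
    rfl
  rw [pow_one, h5, Complex.re_ofReal_mul, ht i]
  push_cast
  ring

/-- The scaled contribution of a major subsection is a positive integer divisible by `2 ^ (h + 1)`, if the height `h`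
of `χ` is positive. -/
theorem pow_le_cn (hM : IsPModular 2 M) {B : Set (IrrCharacter G)} {u : G} (hu : u ^ 4 = 1)
    {b : Set (IrrCharacter (Subgroup.centralizer ({u} : Set G)))}
    (hind : IsInducedBlock M (Subgroup.centralizer ({u} : Set G)) b B) (hd : blockDefect 2 b = blockDefect 2 B)
    {χ : IrrCharacter G} (hχ : χ ∈ B) (hh : blockHeight 2 B (χ : G → ℂ) ≠ 0) :
    (2 : ℝ) ^ (blockHeight 2 B (χ : G → ℂ) + 1) ≤ (2 : ℝ) ^ blockDefect 2 B * cn 2 u b (χ : G → ℂ) := by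
  classical
  have : Fact (Nat.Prime 2) := ⟨Nat.prime_two⟩
  have hMP := isPrime_of_isPModular hM
  have hup : ∃ k : ℕ, orderOf u = 2 ^ k := by
    have h1 : orderOf u ∣ 2 ^ 2 := orderOf_dvd_of_pow_eq_one (by rw [show (2 ^ 2 : ℕ) = 4 by norm_num]; exact hu)
    obtain ⟨k, -, hk⟩ := (Nat.dvd_prime_pow Nat.prime_two).1 h1
    exact ⟨k, hk⟩
  have := Fintype.ofFinite G
  have := Fintype.ofFinite (Subgroup.centralizer ({u} : Set G))
  have := Core.finite_irr (G := Subgroup.centralizer ({u} : Set G))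
  have : Fintype b := Fintype.ofFinite b
  obtain ⟨n, hn⟩ := exists_int_cn hM hu hind.1 χ
  rw [hd] at hn
  obtain ⟨w, hw, hwe⟩ := exists_nonunit_of_height_pos (p := 2) hM hup rfl hind hd hχ hχ hh
  have h0 := contr_self_ne_zero (p := 2) hM hup rfl hind hd hχ
  rw [contr_self_eq_cn] at hwe h0
  have hcast : (((2 : ℕ) : ℂ) ^ blockDefect 2 B * ((cn 2 u b (χ : G → ℂ) : ℝ) : ℂ)) = (n : ℂ) := by
    have h2 := congrArg (fun t : ℝ => (t : ℂ)) hn
    push_cast at h2
    push_cast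
    exact h2
  rw [hcast] at hwe
  -- divisibility
  have hint := isIntegral_pow_sub_mul_contr (p := 2) hM hup rfl hind hd hχ χ
  rw [contr_self_eq_cn] at hint
  have hadd := H648.HeightForm.defect_add (p := 2) B hχ
  have hle : blockHeight 2 B (χ : G → ℂ) ≤ blockDefect 2 B := by
    have h2 : (charDegree (χ : G → ℂ)).factorization 2 ≤ (Nat.card G).factorization 2 :=
      (Nat.factorization_le_iff_dvd (Blocks.Basic.charDegree_pos χ.2).ne' Nat.card_pos.ne').2
        (S0914.degree_spec χ).2.2 2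
    omega
  set d := blockDefect 2 B
  set h := blockHeight 2 B (χ : G → ℂ)
  have h3 : ((2 : ℕ) : ℂ) ^ (d - h) * ((cn 2 u b (χ : G → ℂ) : ℝ) : ℂ) = (((n : ℚ) / 2 ^ h : ℚ) : ℂ) := by
    have h4 : ((2 : ℕ) : ℂ) ^ d = ((2 : ℕ) : ℂ) ^ (d - h) * ((2 : ℕ) : ℂ) ^ h := by
      rw [← pow_add, Nat.sub_add_cancel hle]
    have h5 : (((2 : ℕ) : ℂ) ^ h) ≠ 0 := pow_ne_zero _ (by norm_num)
    rw [h4] at hcast
    push_cast at hcast ⊢
    rw [eq_div_iff (by push_cast at h5; exact h5), ← hcast]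
    ring
  rw [h3] at hint
  have h6 : IsIntegral ℤ ((n : ℚ) / 2 ^ h : ℚ) := by
    have h7 : IsIntegral ℤ (algebraMap ℚ ℂ ((n : ℚ) / 2 ^ h : ℚ)) := by
      rw [eq_ratCast]
      exact hint
    exact (isIntegral_algebraMap_iff (algebraMap ℚ ℂ).injective).1 h7
  obtain ⟨m, hm⟩ := IsIntegrallyClosed.isIntegral_iff.1 h6
  have hm' : (n : ℤ) = m * 2 ^ h := by
    have h8 : (m : ℚ) = (n : ℚ) / 2 ^ h := hm
    have h9 : (n : ℚ) = (m : ℚ) * 2 ^ h := by
      rw [h8]
      field_simp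
    exact_mod_cast h9
  have hmw : (m : ℂ) = w := by
    have h8 : ((2 : ℂ) ^ h) ≠ 0 := pow_ne_zero _ (by norm_num)
    rw [hm'] at hwe
    push_cast at hwe
    apply mul_left_cancel₀ h8
    rw [← hwe]
    ring
  have h2m : (2 : ℤ) ∣ m := by
    rw [← hmw] at hw
    have := (memLocalIdeal_intCast_iff hM (n := m)).1 hw
    exact_mod_cast this
  obtain ⟨m', rfl⟩ := h2m
  have hpos : 0 < (n : ℝ) := by
    rw [← hn]
    refine mul_pos (pow_pos (by norm_num) _) (lt_of_le_of_ne (cn_nonneg _ _ _ _) fun h9 => h0 ?_)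
    rw [← h9]
    norm_num
  rw [hn, hm']
  have hpos' : 0 < n := by exact_mod_cast hpos
  rw [hm'] at hpos'
  have hm'pos : 0 < m' := by
    by_contra h9
    have h10 : m' ≤ 0 := by omega
    have h11 : (0 : ℤ) < 2 ^ h := by positivity
    nlinarith
  have h12 : (1 : ℝ) ≤ (m' : ℝ) := by exact_mod_cast hm'pos
  push_cast
  rw [pow_succ]
  have h13 : (0 : ℝ) < 2 ^ h := by positivity
  nlinarith

variable {B : Set (IrrCharacter G)} {D : Subgroup G}

/-- **The bound.** -/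
theorem card_mul_le_pred (hM : IsPModular 2 M) (hD : IsDefectGroup 2 M B D)
    {b : Set (IrrCharacter ↥(D ⊔ Subgroup.centralizer (D : Set G)))}
    (f : ∀ z : Subgroup.center D,
      Set (IrrCharacter (Subgroup.centralizer ({((z : D) : G)} : Set G))))
    (hf1 : ∀ z : Subgroup.center D, IsInducedBlockIn M
      (Subgroup.centralizer ({((z : D) : G)} : Set G))
      (D ⊔ Subgroup.centralizer (D : Set G)) b (f z))
    (hf2 : ∀ z : Subgroup.center D,
      IsInducedBlock M (Subgroup.centralizer ({((z : D) : G)} : Set G)) (f z) B)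
    (hf3 : ∀ z : Subgroup.center D, IsDefectGroup 2 M (f z)
      (D.subgroupOf (Subgroup.centralizer ({((z : D) : G)} : Set G))))
    (hf4 : ∀ z : Subgroup.center D, blockDefect 2 (f z) = blockDefect 2 B)
    {P : G → Prop}
    (hT : ∀ g : G, (g ∈ Subgroup.normalizer (D : Set G) ∧ ∀ θ ∈ b,
      ∀ θ' : IrrCharacter ↥(D ⊔ Subgroup.centralizer (D : Set G)),
        (∀ h h' : ↥(D ⊔ Subgroup.centralizer (D : Set G)), (h' : G) = g * h * g⁻¹ →
          (θ' : ↥(D ⊔ Subgroup.centralizer (D : Set G)) → ℂ) h' =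
            (θ : ↥(D ⊔ Subgroup.centralizer (D : Set G)) → ℂ) h) → θ' ∈ b) → P g)
    {ι : Type*} [Fintype ι] (z : ι → Subgroup.center D) (hz4 : ∀ i, ((z i : D) : G) ^ 4 = 1)
    (hz : ∀ i j, ∀ t, P t → t * ((z i : D) : G) * t⁻¹ = ((z j : D) : G) → i = j)
    {χ : IrrCharacter G} (hχ : χ ∈ B) (hh : blockHeight 2 B (χ : G → ℂ) ≠ 0) :
    Fintype.card ι * 2 ^ (blockHeight 2 B (χ : G → ℂ) + 1) ≤ 2 ^ blockDefect 2 B := by
  classical
  have : Fact (Nat.Prime 2) := ⟨Nat.prime_two⟩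
  have hDp : IsPGroup 2 D := Blocks.Basic.isPGroup_of_isDefectGroup hD
  have hzc : ∀ z : Subgroup.center D, ∀ w ∈ D, ((z : D) : G) * w = w * ((z : D) : G) := by
    intro z w hw
    have h1 := Subgroup.mem_center_iff.1 z.2 ⟨w, hw⟩
    exact (congrArg Subtype.val h1).symm
  have h1 := sum_major_le (p := 2) hM (fun i => ((z i : D) : G)) (fun i => by
      rw [Subgroup.orderOf_coe]
      exact IsPGroup.iff_orderOf.1 hDp _) (fun i => f (z i)) (fun i => (hf1 (z i)).2.1) (e := 1) ?_ χ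
  · have h2 : (Fintype.card ι : ℝ) * 2 ^ (blockHeight 2 B (χ : G → ℂ) + 1) ≤
        (2 : ℝ) ^ blockDefect 2 B * ∑ i, cn 2 ((z i : D) : G) (f (z i)) (χ : G → ℂ) := by
      rw [Finset.mul_sum, ← nsmul_eq_mul, ← Finset.card_univ, ← Finset.sum_const]
      exact Finset.sum_le_sum fun i _ => pow_le_cn hM (hz4 i) (hf2 (z i)) (hf4 (z i)) hχ hh
    have h3 : (2 : ℝ) ^ blockDefect 2 B * ∑ i, cn 2 ((z i : D) : G) (f (z i)) (χ : G → ℂ) ≤
        (2 : ℝ) ^ blockDefect 2 B := by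
      have h4 : (0 : ℝ) < 2 ^ blockDefect 2 B := by positivity
      push_cast at h1
      nlinarith
    exact_mod_cast h2.trans h3
  · intro i
    rw [Nat.card_eq_fintype_card, Fintype.card_le_one_iff]
    rintro ⟨j, x, ε, hε, hx, hεf⟩ ⟨j', x', ε', hε', hx', hεf'⟩
    have h5 : ∀ j : ι, ∀ (x : G) (ε : Subgroup.centralizer ({((z j : D) : G)} : Set G) ≃*
        Subgroup.centralizer ({((z i : D) : G)} : Set G)), IsCj x ε → x * ((z j : D) : G) * x⁻¹ = ((z i : D) : G) →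
        trB ε (f (z j)) = f (z i) → j = i := by
      intro j x ε hε hx hεf
      obtain ⟨t, ht, htN, htb⟩ := fuse hM rfl rfl rfl ((z i : D)).2 (hzc (z i)) (hf1 (z j)) (hf3 (z j))
        (le_centralizer_of_mem_center (hzc (z j))) (hf1 (z i)) (hf3 (z i)) x hx hε hεf
      exact hz j i t (hT t ⟨htN, htb⟩) ht
    exact Subtype.ext ((h5 j x ε hε hx hεf).trans (h5 j' x' ε' hε' hx' hεf').symm)

/-- The bound, for the stabilizer `T`. -/
theorem card_mul_le (hM : IsPModular 2 M) (hD : IsDefectGroup 2 M B D)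
    {b : Set (IrrCharacter ↥(D ⊔ Subgroup.centralizer (D : Set G)))}
    (f : ∀ z : Subgroup.center D,
      Set (IrrCharacter (Subgroup.centralizer ({((z : D) : G)} : Set G))))
    (hf1 : ∀ z : Subgroup.center D, IsInducedBlockIn M
      (Subgroup.centralizer ({((z : D) : G)} : Set G))
      (D ⊔ Subgroup.centralizer (D : Set G)) b (f z))
    (hf2 : ∀ z : Subgroup.center D,
      IsInducedBlock M (Subgroup.centralizer ({((z : D) : G)} : Set G)) (f z) B)
    (hf3 : ∀ z : Subgroup.center D, IsDefectGroup 2 M (f z)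
      (D.subgroupOf (Subgroup.centralizer ({((z : D) : G)} : Set G))))
    (hf4 : ∀ z : Subgroup.center D, blockDefect 2 (f z) = blockDefect 2 B)
    {T : Subgroup G}
    (hT : ∀ g : G, g ∈ T ↔ (g ∈ Subgroup.normalizer (D : Set G) ∧ ∀ θ ∈ b,
      ∀ θ' : IrrCharacter ↥(D ⊔ Subgroup.centralizer (D : Set G)),
        (∀ h h' : ↥(D ⊔ Subgroup.centralizer (D : Set G)), (h' : G) = g * h * g⁻¹ →
          (θ' : ↥(D ⊔ Subgroup.centralizer (D : Set G)) → ℂ) h' =
            (θ : ↥(D ⊔ Subgroup.centralizer (D : Set G)) → ℂ) h) → θ' ∈ b))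
    {ι : Type*} [Fintype ι] (z : ι → Subgroup.center D) (hz4 : ∀ i, ((z i : D) : G) ^ 4 = 1)
    (hz : ∀ i j, ∀ t ∈ T, t * ((z i : D) : G) * t⁻¹ = ((z j : D) : G) → i = j)
    {χ : IrrCharacter G} (hχ : χ ∈ B) (hh : blockHeight 2 B (χ : G → ℂ) ≠ 0) :
    Fintype.card ι * 2 ^ (blockHeight 2 B (χ : G → ℂ) + 1) ≤ 2 ^ blockDefect 2 B :=
  card_mul_le_pred hM hD f hf1 hf2 hf3 hf4 (P := fun g => g ∈ T) (fun g hg => (hT g).2 hg) z hz4 hz hχ hh

/-- `|Z(D)| ≤ 2 ^ (d - h) * |T : H|`. -/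
theorem card_center_le_mul (hM : IsPModular 2 M) (hD : IsDefectGroup 2 M B D)
    {b : Set (IrrCharacter ↥(D ⊔ Subgroup.centralizer (D : Set G)))}
    (f : ∀ z : Subgroup.center D,
      Set (IrrCharacter (Subgroup.centralizer ({((z : D) : G)} : Set G))))
    (hf1 : ∀ z : Subgroup.center D, IsInducedBlockIn M
      (Subgroup.centralizer ({((z : D) : G)} : Set G))
      (D ⊔ Subgroup.centralizer (D : Set G)) b (f z))
    (hf2 : ∀ z : Subgroup.center D,
      IsInducedBlock M (Subgroup.centralizer ({((z : D) : G)} : Set G)) (f z) B)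
    (hf3 : ∀ z : Subgroup.center D, IsDefectGroup 2 M (f z)
      (D.subgroupOf (Subgroup.centralizer ({((z : D) : G)} : Set G))))
    (hf4 : ∀ z : Subgroup.center D, blockDefect 2 (f z) = blockDefect 2 B)
    {T : Subgroup G}
    (hT : ∀ g : G, g ∈ T ↔ (g ∈ Subgroup.normalizer (D : Set G) ∧ ∀ θ ∈ b,
      ∀ θ' : IrrCharacter ↥(D ⊔ Subgroup.centralizer (D : Set G)),
        (∀ h h' : ↥(D ⊔ Subgroup.centralizer (D : Set G)), (h' : G) = g * h * g⁻¹ →
          (θ' : ↥(D ⊔ Subgroup.centralizer (D : Set G)) → ℂ) h' =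
            (θ : ↥(D ⊔ Subgroup.centralizer (D : Set G)) → ℂ) h) → θ' ∈ b))
    {χ : IrrCharacter G} (hχ : χ ∈ B) :
    Nat.card (Subgroup.center D) ≤ 2 ^ (blockDefect 2 B - blockHeight 2 B (χ : G → ℂ)) *
      (D ⊔ Subgroup.centralizer (D : Set G)).relIndex T := by
  have : Fact (Nat.Prime 2) := ⟨Nat.prime_two⟩
  have := Fintype.ofFinite (Subgroup.center D)
  have h1 := card_center_le (p := 2) hM hD f hf1 hf2 hf4 hχ
  have h2 := sum_center_le (p := 2) hM hD f hf1 hf3 χ hT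
  have h3 : (Nat.card (Subgroup.center D) : ℝ) ≤ (2 : ℝ) ^ (blockDefect 2 B - blockHeight 2 B (χ : G → ℂ)) *
      ((D ⊔ Subgroup.centralizer (D : Set G)).relIndex T : ℕ) := by
    push_cast at h1
    exact h1.trans (mul_le_mul_of_nonneg_left h2 (by positivity))
  exact_mod_cast h3

end Cfsg.Agent.H850.DXVI
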